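import Groth.Agent.FlatA.OpenPushout
import Mathlib.AlgebraicGeometry.Pullbacks
import Mathlib.AlgebraicGeometry.Morphisms.ClosedImmersion

/-!
# Two-element open covers: gluing morphisms, testing cartesian squares
-/

set_option autoImplicit false
universe u

namespace Groth.Agent.Pi1.H409.GluePair

open AlgebraicGeometry CategoryTheory CategoryTheory.Limits

/-- The open cover given by two open immersions. -/
noncomputable def pairCover {X U V : Scheme.{u}} (a : U ⟶ X) (b : V ⟶ X) [IsOpenImmersion a]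
    [IsOpenImmersion b] (hcov : a.opensRange ⊔ b.opensRange = ⊤) : X.OpenCover where
  I₀ := ULift.{u} Bool
  X i := bif i.down then U else V
  f i := match i with
    | ⟨true⟩ => a
    | ⟨false⟩ => b
  mem₀ := by
    rw [Scheme.presieve₀_mem_precoverage_iff]
    refine ⟨fun x ↦ ?_, ?_⟩
    · have hx : x ∈ a.opensRange ⊔ b.opensRange := by rw [hcov]; trivial
      rcases hx with hx | hx
      · exact ⟨⟨true⟩, hx⟩
      · exact ⟨⟨false⟩, hx⟩
    · rintro ⟨_ | _⟩
      · exact ‹IsOpenImmersion b›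
      · exact ‹IsOpenImmersion a›

/-- Gluing two morphisms. -/
theorem exists_desc {X Y U V W : Scheme.{u}} (a : U ⟶ X) (b : V ⟶ X) [IsOpenImmersion a]
    [IsOpenImmersion b] (hcov : a.opensRange ⊔ b.opensRange = ⊤) (j₁ : W ⟶ U) (j₂ : W ⟶ V)
    (hW : IsPullback j₁ j₂ a b) (f : U ⟶ Y) (g : V ⟶ Y) (h : j₁ ≫ f = j₂ ≫ g) :
    ∃ φ : X ⟶ Y, a ≫ φ = f ∧ b ≫ φ = g := by
  let 𝒰 := pairCover a b hcov
  let F : ∀ i : 𝒰.I₀, 𝒰.X i ⟶ Y := fun i => match i with
    | ⟨true⟩ => f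
    | ⟨false⟩ => g
  have hab : pullback.fst a b ≫ f = pullback.snd a b ≫ g := by
    have h1 : pullback.fst a b = hW.isoPullback.inv ≫ j₁ := by simp
    have h2 : pullback.snd a b = hW.isoPullback.inv ≫ j₂ := by simp
    rw [h1, h2, Category.assoc, Category.assoc, h]
  have hF : ∀ i j : 𝒰.I₀, pullback.fst (𝒰.f i) (𝒰.f j) ≫ F i = pullback.snd (𝒰.f i) (𝒰.f j) ≫ F j := by
    rintro ⟨_ | _⟩ ⟨_ | _⟩
    · change pullback.fst b b ≫ g = pullback.snd b b ≫ g
      rw [fst_eq_snd_of_mono_eq]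
    · change pullback.fst b a ≫ g = pullback.snd b a ≫ f
      have h1 : pullback.fst b a = (pullbackSymmetry b a).hom ≫ pullback.snd a b := by simp
      have h2 : pullback.snd b a = (pullbackSymmetry b a).hom ≫ pullback.fst a b := by simp
      rw [h1, h2, Category.assoc, Category.assoc, hab]
    · change pullback.fst a b ≫ f = pullback.snd a b ≫ g
      exact hab
    · change pullback.fst a a ≫ f = pullback.snd a a ≫ f
      rw [fst_eq_snd_of_mono_eq]
  refine ⟨𝒰.glueMorphisms F hF, ?_, ?_⟩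
  · exact 𝒰.ι_glueMorphisms F hF ⟨true⟩
  · exact 𝒰.ι_glueMorphisms F hF ⟨false⟩

/-- Testing equality of morphisms. -/
theorem hom_ext {X Y U V : Scheme.{u}} (a : U ⟶ X) (b : V ⟶ X) [IsOpenImmersion a]
    [IsOpenImmersion b] (hcov : a.opensRange ⊔ b.opensRange = ⊤) {f g : X ⟶ Y}
    (h₁ : a ≫ f = a ≫ g) (h₂ : b ≫ f = b ≫ g) : f = g := by
  refine (pairCover a b hcov).hom_ext _ _ ?_
  rintro ⟨_ | _⟩
  · exact h₂
  · exact h₁

/-- Testing a cartesian square on two opens of the upper right corner. -/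
theorem isPullback_of_pair {X X' S S' U V U' V' : Scheme.{u}} {i : X ⟶ X'} {p : X ⟶ S}
    {p' : X' ⟶ S'} {s : S ⟶ S'} (a' : U' ⟶ X') (b' : V' ⟶ X') [IsOpenImmersion a']
    [IsOpenImmersion b'] (hcov : a'.opensRange ⊔ b'.opensRange = ⊤) {a : U ⟶ X} {b : V ⟶ X}
    {iU : U ⟶ U'} {iV : V ⟶ V'} (hU : IsPullback a iU i a') (hV : IsPullback b iV i b')
    (hU' : IsPullback iU (a ≫ p) (a' ≫ p') s) (hV' : IsPullback iV (b ≫ p) (b' ≫ p') s) :
    IsPullback i p p' s := by
  refine Scheme.isPullback_of_openCover i p p' s (pairCover a' b' hcov) ?_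
  rintro ⟨_ | _⟩
  · change IsPullback (pullback.snd i b') (pullback.fst i b' ≫ p) (b' ≫ p') s
    exact hV'.of_iso hV.isoPullback (Iso.refl _) (Iso.refl _) (Iso.refl _) (by simp) (by simp)
      (by simp) (by simp)
  · change IsPullback (pullback.snd i a') (pullback.fst i a' ≫ p) (a' ≫ p') s
    exact hU'.of_iso hU.isoPullback (Iso.refl _) (Iso.refl _) (Iso.refl _) (by simp) (by simp)
      (by simp) (by simp)

/-- Properties local on the source, tested on two opens. -/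
theorem of_source_pair (P : MorphismProperty Scheme.{u}) [IsZariskiLocalAtSource P]
    {X S U V : Scheme.{u}} (a : U ⟶ X) (b : V ⟶ X) [IsOpenImmersion a] [IsOpenImmersion b]
    (hcov : a.opensRange ⊔ b.opensRange = ⊤) (p : X ⟶ S) (h₁ : P (a ≫ p)) (h₂ : P (b ≫ p)) :
    P p := by
  rw [IsZariskiLocalAtSource.iff_of_openCover (P := P) (pairCover a b hcov)]
  rintro ⟨_ | _⟩
  · exact h₂
  · exact h₁

/-- Open immersions lift through thickenings. -/
theorem exists_open_lift {Z Z' W : Scheme.{u}} (i : Z ⟶ Z') [IsClosedImmersion i] [Surjective i]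
    (j : W ⟶ Z) [IsOpenImmersion j] :
    ∃ (W' : Scheme.{u}) (k : W ⟶ W') (j' : W' ⟶ Z'), IsOpenImmersion j' ∧ IsPullback k j j' i := by
  have hi : IsHomeomorph i := by
    rw [isHomeomorph_iff_isEmbedding_surjective]
    exact ⟨i.isClosedEmbedding.isEmbedding, i.surjective⟩
  let O : Z'.Opens := ⟨i '' (Set.range j), hi.isOpenMap _ j.isOpenEmbedding.isOpen_range⟩
  have hr : Set.range (j ≫ i) ⊆ Set.range O.ι := by
    rw [Scheme.Opens.range_ι]
    rintro _ ⟨w, rfl⟩
    exact ⟨j w, ⟨w, rfl⟩, rfl⟩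
  refine ⟨O, IsOpenImmersion.lift O.ι (j ≫ i) hr, O.ι, inferInstance, ?_⟩
  refine IsOpenImmersion.isPullback _ _ _ _ (IsOpenImmersion.lift_fac _ _ _).symm ?_
  ext x
  rw [Scheme.Opens.opensRange_ι]
  constructor
  · rintro ⟨_, ⟨w, rfl⟩, h⟩
    exact ⟨w, hi.injective h⟩
  · rintro ⟨w, rfl⟩
    exact ⟨j w, ⟨w, rfl⟩, rfl⟩

end Groth.Agent.Pi1.H409.GluePair
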