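import Mathlib.RingTheory.AdicCompletion.Basic
import Mathlib.RingTheory.Henselian
import Mathlib.RingTheory.Ideal.Quotient.Operations
import Mathlib.RingTheory.LocalRing.Quotient
import Mathlib.RingTheory.LocalRing.RingHom.Basic
import Mathlib.RingTheory.Spectrum.Prime.Topology
import Mathlib.Algebra.Polynomial.Lifts

/-!
# The quotients `A / 𝔪 ^ (n + 1)` of a complete local ring
-/

set_option autoImplicit false
universe u

namespace Groth.Agent.Pi1.H409.QuotTower

open IsLocalRing Polynomial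

/-- Quotients of henselian local rings are henselian. -/
theorem henselianLocalRing_quotient (R : Type u) [CommRing R] [HenselianLocalRing R] (J : Ideal R)
    (hJ : J ≠ ⊤) : HenselianLocalRing (R ⧸ J) := by
  have hnt : Nontrivial (R ⧸ J) := Ideal.Quotient.nontrivial_iff.mpr hJ
  have hloc : IsLocalRing (R ⧸ J) :=
    IsLocalRing.of_surjective' (Ideal.Quotient.mk J) Ideal.Quotient.mk_surjective
  have hlh : IsLocalHom (Ideal.Quotient.mk J) := Ideal.Quotient.mk_surjective.isLocalHom _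
  refine ⟨?_⟩
  intro f hf a₀ h1 h2
  obtain ⟨F, hF, -, hFm⟩ := lifts_and_degree_eq_and_monic (f := Ideal.Quotient.mk J)
    (by
      rw [Polynomial.mem_lifts]
      exact Polynomial.map_surjective _ Ideal.Quotient.mk_surjective f) hf
  obtain ⟨b, rfl⟩ := Ideal.Quotient.mk_surjective a₀
  rw [← hF, Polynomial.eval_map_apply] at h1
  rw [← hF, Polynomial.derivative_map, Polynomial.eval_map_apply] at h2
  obtain ⟨a, ha, ha'⟩ := HenselianLocalRing.is_henselian F hFm b
    ((mem_maximalIdeal _).mpr fun hu => (mem_maximalIdeal _).mp h1 (hu.map _))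
    (isUnit_of_map_unit (Ideal.Quotient.mk J) _ h2)
  refine ⟨Ideal.Quotient.mk J a, ?_, ?_⟩
  · rw [← hF]
    exact Polynomial.IsRoot.map ha
  · rw [← map_sub]
    exact (mem_maximalIdeal _).mpr fun hu =>
      (mem_maximalIdeal _).mp ha' (isUnit_of_map_unit (Ideal.Quotient.mk J) _ hu)

/-- A complete local ring is henselian. -/
theorem henselianLocalRing_of_isAdicComplete (A : Type u) [CommRing A] [IsLocalRing A]
    [IsAdicComplete (maximalIdeal A) A] : HenselianLocalRing A where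
  is_henselian f hf a₀ h₁ h₂ :=
    HenselianRing.is_henselian (I := maximalIdeal A) f hf a₀ h₁ (h₂.map _)

variable (A : Type u) [CommRing A] [IsLocalRing A]

/-- the transition map -/
abbrev tr (n : ℕ) : A ⧸ maximalIdeal A ^ (n + 1 + 1) →+* A ⧸ maximalIdeal A ^ (n + 1) :=
  Ideal.Quotient.factor (Ideal.pow_le_pow_right (Nat.le_succ (n + 1)))

theorem tr_surjective (n : ℕ) : Function.Surjective (tr A n) :=
  Ideal.Quotient.factor_surjective _

theorem mem_of_tr_eq_zero (n : ℕ) {a : A}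
    (h : tr A n (Ideal.Quotient.mk _ a) = 0) : a ∈ maximalIdeal A ^ (n + 1) := by
  rwa [Ideal.Quotient.factor_mk, Ideal.Quotient.eq_zero_iff_mem] at h

theorem ker_tr_sq (n : ℕ) : RingHom.ker (tr A n) ^ 2 = ⊥ := by
  rw [eq_bot_iff, sq, Ideal.mul_le]
  intro x hx y hy
  obtain ⟨a, rfl⟩ := Ideal.Quotient.mk_surjective x
  obtain ⟨b, rfl⟩ := Ideal.Quotient.mk_surjective y
  have h1 := Ideal.mul_mem_mul (mem_of_tr_eq_zero A n hx) (mem_of_tr_eq_zero A n hy)
  rw [← pow_add] at h1
  have h2 : a * b ∈ maximalIdeal A ^ (n + 1 + 1) := Ideal.pow_le_pow_right (by omega) h1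
  rw [← map_mul, Ideal.Quotient.eq_zero_iff_mem.2 h2]
  exact Submodule.zero_mem _

theorem pow_ne_top (n : ℕ) : maximalIdeal A ^ (n + 1) ≠ ⊤ := fun h =>
  (maximalIdeal.isMaximal A).ne_top (top_le_iff.1 (h ▸ Ideal.pow_le_self (Nat.succ_ne_zero n)))

theorem eq_closedPoint (n : ℕ) [IsLocalRing (A ⧸ maximalIdeal A ^ (n + 1))]
    (x : PrimeSpectrum (A ⧸ maximalIdeal A ^ (n + 1))) :
    x = closedPoint (A ⧸ maximalIdeal A ^ (n + 1)) := by
  have hlh : IsLocalHom (Ideal.Quotient.mk (maximalIdeal A ^ (n + 1))) :=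
    Ideal.Quotient.mk_surjective.isLocalHom _
  ext1
  refine le_antisymm (le_maximalIdeal x.isPrime.ne_top) ?_
  intro y hy
  obtain ⟨a, rfl⟩ := Ideal.Quotient.mk_surjective y
  have ha : a ∈ maximalIdeal A := (mem_maximalIdeal _).2 fun hu =>
    (mem_maximalIdeal _).1 hy (hu.map _)
  refine x.isPrime.mem_of_pow_mem (n + 1) ?_
  rw [← map_pow, Ideal.Quotient.eq_zero_iff_mem.2 (Ideal.pow_mem_pow ha _)]
  exact x.asIdeal.zero_mem

/-- Separation of the limit. -/
theorem eq_of_forall_mk [IsAdicComplete (maximalIdeal A) A] (x y : A)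
    (h : ∀ n : ℕ, Ideal.Quotient.mk (maximalIdeal A ^ (n + 1)) x =
      Ideal.Quotient.mk (maximalIdeal A ^ (n + 1)) y) : x = y := by
  rw [IsHausdorff.eq_iff_smodEq (I := maximalIdeal A)]
  intro n
  rw [SModEq.sub_mem, smul_eq_mul, Ideal.mul_top]
  exact Ideal.pow_le_pow_right (Nat.le_succ n) (Ideal.Quotient.eq.1 (h n))

/-- Completeness. -/
theorem exists_of_compat [IsAdicComplete (maximalIdeal A) A]
    (c : ∀ n : ℕ, A ⧸ maximalIdeal A ^ (n + 1)) (hc : ∀ n, tr A n (c (n + 1)) = c n) :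
    ∃ x : A, ∀ n, Ideal.Quotient.mk (maximalIdeal A ^ (n + 1)) x = c n := by
  choose a ha using fun n => Ideal.Quotient.mk_surjective (c n)
  have h1 : ∀ n, a (n + 1) - a n ∈ maximalIdeal A ^ (n + 1) := by
    intro n
    rw [← Ideal.Quotient.eq, ha n, ← hc n, ← ha (n + 1), Ideal.Quotient.factor_mk]
  have h2 : ∀ {m n}, m ≤ n → a m ≡ a n [SMOD (maximalIdeal A ^ m • ⊤ : Submodule A A)] := by
    intro m n hmn
    induction n, hmn using Nat.le_induction with
    | base => rfl
    | succ n hmn ih =>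
      refine ih.trans (SModEq.symm ?_)
      rw [SModEq.sub_mem, smul_eq_mul, Ideal.mul_top]
      exact Ideal.pow_le_pow_right (by omega) (h1 n)
  obtain ⟨x, hx⟩ := IsPrecomplete.prec' (I := maximalIdeal A) a h2
  refine ⟨x, fun n => ?_⟩
  have h3 := hx (n + 1)
  rw [SModEq.sub_mem, smul_eq_mul, Ideal.mul_top] at h3
  have h4 : x - a n ∈ maximalIdeal A ^ (n + 1) := by
    have := Ideal.sub_mem _ (h1 n) h3
    convert this using 1
    ring
  rw [← ha n]
  exact Ideal.Quotient.eq.2 h4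

end Groth.Agent.Pi1.H409.QuotTower
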